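import Cfsg.Agent.H891.DG.Defs

/-!
# TEAM GEN, S4180: Nielsen moves and Gaschütz' lemma for `Lift` (helper891)

`Lift N x y` : some pair `(x s, y t)`, `s t ∈ N`, generates a subgroup containing `N`.

* `Lift.mul_right'`, … : the Nielsen moves (`N` normal);
* `lift_of_ker`, `cos2_of_ker` : for a homomorphism `φ` to a cyclic group it is enough to treat the pairs with `φ x = 1`;
* `lift_of_twoGen` : Gaschütz: if `⟨x, y⟩ N` is 2-generated, then `Lift N x y`;
* `cos2_of_twoGen` : `Cos2 T` from the 2-generation of the almost simple groups;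
* `cos2_of_out_one` : `Cos2 T` when `Out T = 1` and `T` is 2-generated.
-/

set_option autoImplicit false
set_option linter.unusedSectionVars false

namespace Cfsg.Agent.H891.DG.Nielsen

open Cfsg.Agent.H440.TwoGen Cfsg.Agent.H891.Gen Cfsg.Agent.H891.DG Subgroup

universe u v

section Moves

variable {G : Type u} [Group G] {N : Subgroup G}

/-- depends only on the group generated -/
theorem lift_of_closure {x y x' y' : G}
    (h : ∀ s ∈ N, ∀ t ∈ N, ∃ s' ∈ N, ∃ t' ∈ N, closure ({x * s, y * t} : Set G) ≤ closure ({x' * s', y' * t'} : Set G))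
    (hl : Lift N x y) : Lift N x' y' := by
  obtain ⟨s, hs, t, ht, hle⟩ := hl
  obtain ⟨s', hs', t', ht', h1⟩ := h s hs t ht
  exact ⟨s', hs', t', ht', hle.trans h1⟩

theorem pair_le {a b c d : G} (h1 : a ∈ closure ({c, d} : Set G)) (h2 : b ∈ closure ({c, d} : Set G)) :
    closure ({a, b} : Set G) ≤ closure ({c, d} : Set G) := by
  rw [closure_le]
  rintro z (rfl | hz)
  · exact h1
  · rw [Set.mem_singleton_iff] at hz
    rw [hz]
    exact h2

/-- `(x, x y) → (x, y)` -/
theorem Lift.of_mul_left (hN : N.Normal) {x y : G} (h : Lift N x (x * y)) : Lift N x y := by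
  refine lift_of_closure ?_ h
  intro s hs t ht
  refine ⟨s, hs, y⁻¹ * s⁻¹ * y * t, mul_mem (by simpa using hN.conj_mem s⁻¹ (inv_mem hs) y⁻¹) ht, pair_le ?_ ?_⟩
  · exact subset_closure (by simp)
  · have e : x * y * t = (x * s) * (y * (y⁻¹ * s⁻¹ * y * t)) := by group
    rw [e]
    exact mul_mem (subset_closure (by simp)) (subset_closure (by simp))

/-- `(x, y) → (x, x y)` -/
theorem Lift.mul_left (hN : N.Normal) {x y : G} (h : Lift N x y) : Lift N x (x * y) := by
  refine lift_of_closure ?_ h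
  intro s hs t ht
  refine ⟨s, hs, y⁻¹ * s * y * t, mul_mem (by simpa using hN.conj_mem s hs y⁻¹) ht, pair_le ?_ ?_⟩
  · exact subset_closure (by simp)
  · have e : y * t = (x * s)⁻¹ * (x * y * (y⁻¹ * s * y * t)) := by group
    rw [e]
    exact mul_mem (inv_mem (subset_closure (by simp))) (subset_closure (by simp))

/-- changing representatives -/
theorem Lift.of_mul_mem {x y a b : G} (ha : a ∈ N) (hb : b ∈ N) (h : Lift N (x * a) (y * b)) :
    Lift N x y := by
  obtain ⟨s, hs, t, ht, h⟩ := h
  refine ⟨a * s, mul_mem ha hs, b * t, mul_mem hb ht, ?_⟩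
  rwa [← mul_assoc, ← mul_assoc]

theorem Lift.congr {x y x' y' : G} (hx : x'⁻¹ * x ∈ N) (hy : y'⁻¹ * y ∈ N) (h : Lift N x y) :
    Lift N x' y' := by
  refine Lift.of_mul_mem hx hy ?_
  rwa [mul_inv_cancel_left, mul_inv_cancel_left]

/-- `(x⁻¹, y) → (x, y)` -/
theorem Lift.of_inv (hN : N.Normal) {x y : G} (h : Lift N x⁻¹ y) : Lift N x y := by
  refine lift_of_closure ?_ h
  intro s hs t ht
  refine ⟨x⁻¹ * s⁻¹ * x, by simpa using hN.conj_mem s⁻¹ (inv_mem hs) x⁻¹, t, ht, pair_le ?_ ?_⟩
  · have e : x⁻¹ * s = (x * (x⁻¹ * s⁻¹ * x))⁻¹ := by group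
    rw [e]
    exact inv_mem (subset_closure (by simp))
  · exact subset_closure (by simp)

/-- Euclid: for a homomorphism to a cyclic group it is enough to treat the pairs whose first member is in the kernel. -/
theorem lift_of_ker (hN : N.Normal) {C : Type*} [Group C] [Finite C] [IsCyclic C] (φ : G →* C)
    (h : ∀ x y : G, φ x = 1 → Lift N x y) (x y : G) : Lift N x y := by
  obtain ⟨c, hc⟩ := IsCyclic.exists_generator (α := C)
  have hex : ∀ g : C, ∃ n : ℕ, g = c ^ n := by
    intro g
    obtain ⟨n, hn⟩ := (mem_powers_iff_mem_zpowers.2 (hc g))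
    exact ⟨n, hn.symm⟩
  have key : ∀ k a b : ℕ, a + b ≤ k → ∀ x y : G, φ x = c ^ a → φ y = c ^ b → Lift N x y := by
    intro k
    induction k with
    | zero =>
      intro a b hab x y hx hy
      have ha : a = 0 := by omega
      subst ha
      exact h x y (by rw [hx, pow_zero])
    | succ k ih =>
      intro a b hab x y hx hy
      rcases Nat.eq_zero_or_pos a with ha | ha
      · subst ha
        exact h x y (by rw [hx, pow_zero])
      rcases Nat.eq_zero_or_pos b with hb | hb
      · subst hb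
        exact (h y x (by rw [hy, pow_zero])).symm
      rcases le_total a b with hle | hle
      · have h1 : Lift N x (x⁻¹ * y) := by
          refine ih a (b - a) (by omega) _ _ hx ?_
          rw [map_mul, map_inv, hx, hy, inv_mul_eq_iff_eq_mul, ← pow_add, Nat.add_sub_cancel' hle]
        have h2 := Lift.mul_left hN h1
        rwa [mul_inv_cancel_left] at h2
      · have h1 : Lift N y (y⁻¹ * x) := by
          refine ih b (a - b) (by omega) _ _ hy ?_
          rw [map_mul, map_inv, hx, hy, inv_mul_eq_iff_eq_mul, ← pow_add, Nat.add_sub_cancel' hle]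
        have h2 := Lift.mul_left hN h1
        rw [mul_inv_cancel_left] at h2
        exact h2.symm
  obtain ⟨a, ha⟩ := hex (φ x)
  obtain ⟨b, hb⟩ := hex (φ y)
  exact key (a + b) a b le_rfl x y ha hb

end Moves

section Gaschutz

variable {G : Type u} [Group G]

theorem sup_eq_top_of_pair {N : Subgroup G} {x y : G} (h : closure ({x, y} : Set G) ⊔ N = ⊤) {a b : G}
    (h1 : x⁻¹ * a ∈ N) (h2 : y⁻¹ * b ∈ N) : closure ({a, b} : Set G) ⊔ N = ⊤ := by
  rw [eq_top_iff, ← h]
  refine sup_le ?_ le_sup_right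
  rw [closure_le]
  have key : ∀ (c d : G), d ∈ closure ({a, b} : Set G) → c⁻¹ * d ∈ N → c ∈ closure ({a, b} : Set G) ⊔ N := by
    intro c d hd hc
    have e : c = d * (c⁻¹ * d)⁻¹ := by group
    rw [e]
    exact mul_mem (mem_sup_left hd) (mem_sup_right (inv_mem hc))
  rintro z (rfl | hz)
  · exact key _ _ (subset_closure (by simp)) h1
  · rw [Set.mem_singleton_iff] at hz
    subst hz
    exact key _ _ (subset_closure (by simp)) h2

open Classical in
/-- the pairs in `x N × y N` generating `H` -/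
noncomputable def prs [Fintype G] (N : Subgroup G) (x y : G) (H : Subgroup G) : Finset (G × G) :=
  {q | x⁻¹ * q.1 ∈ N ∧ y⁻¹ * q.2 ∈ N ∧ closure ({q.1, q.2} : Set G) = H}

open Classical in
/-- the pairs in `x N × y N` inside `H` -/
noncomputable def ins [Fintype G] (N : Subgroup G) (x y : G) (H : Subgroup G) : Finset (G × G) :=
  {q | x⁻¹ * q.1 ∈ N ∧ y⁻¹ * q.2 ∈ N ∧ q.1 ∈ H ∧ q.2 ∈ H}

open Classical in
theorem card_coset_inf [Fintype G] {N H : Subgroup G} (hN : N.Normal) (hH : H ⊔ N = ⊤) (x : G) :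
    (Finset.univ.filter fun g : G => x⁻¹ * g ∈ N ∧ g ∈ H).card = Nat.card ↥(N ⊓ H) := by
  obtain ⟨h, hh, n, hn, rfl⟩ : ∃ h ∈ H, ∃ n ∈ N, h * n = x := by
    have h1 : x ∈ H ⊔ N := hH ▸ mem_top x
    exact mem_sup_of_normal_right.1 h1
  rw [← Fintype.card_subtype, ← Nat.card_eq_fintype_card]
  refine Nat.card_congr ⟨fun g => ⟨h⁻¹ * g.1, ?_, H.mul_mem (H.inv_mem hh) g.2.2⟩,
    fun k => ⟨h * k.1, ?_, mul_mem hh k.2.2⟩, fun g => Subtype.ext (by simp), fun k => Subtype.ext (by simp)⟩
  · have e : h⁻¹ * g.1 = n * ((h * n)⁻¹ * g.1) := by group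
    rw [e]
    exact mul_mem hn g.2.1
  · have e : (h * n)⁻¹ * (h * k.1) = n⁻¹ * k.1 := by group
    rw [e]
    exact mul_mem (inv_mem hn) k.2.1

open Classical in
theorem card_ins [Fintype G] {N H : Subgroup G} (hN : N.Normal) (hH : H ⊔ N = ⊤) (x y : G) :
    (ins N x y H).card = Nat.card ↥(N ⊓ H) ^ 2 := by
  have e : ins N x y H = (Finset.univ.filter fun g : G => x⁻¹ * g ∈ N ∧ g ∈ H) ×ˢ
      (Finset.univ.filter fun g : G => y⁻¹ * g ∈ N ∧ g ∈ H) := by
    ext q
    simp only [ins, Finset.mem_filter, Finset.mem_univ, true_and, Finset.mem_product]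
    tauto
  rw [e, Finset.card_product, card_coset_inf hN hH, card_coset_inf hN hH, sq]

open Classical in
theorem card_ins_eq_sum [Fintype G] {N : Subgroup G} (x y : G) (H : Subgroup G) :
    (ins N x y H).card = ∑ K ∈ (Finset.univ.filter fun K : Subgroup G => K ≤ H), (prs N x y K).card := by
  have h1 : ∀ q ∈ ins N x y H, closure ({q.1, q.2} : Set G) ∈ (Finset.univ.filter fun K : Subgroup G => K ≤ H) := by
    intro q hq
    simp only [ins, Finset.mem_filter, Finset.mem_univ, true_and] at hq ⊢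
    rw [closure_le]
    rintro z (rfl | hz)
    · exact hq.2.2.1
    · rw [Set.mem_singleton_iff] at hz
      rw [hz]
      exact hq.2.2.2
  rw [Finset.card_eq_sum_card_fiberwise h1]
  refine Finset.sum_congr rfl fun K hK => ?_
  congr 1
  ext q
  simp only [ins, prs, Finset.mem_filter, Finset.mem_univ, true_and] at hK ⊢
  constructor
  · rintro ⟨⟨h1, h2, -, -⟩, h3⟩
    exact ⟨h1, h2, h3⟩
  · rintro ⟨h1, h2, h3⟩
    exact ⟨⟨h1, h2, hK (h3 ▸ subset_closure (by simp)), hK (h3 ▸ subset_closure (by simp))⟩, h3⟩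

theorem card_prs_eq [Fintype G] {N : Subgroup G} (hN : N.Normal) {x y x' y' : G}
    (h : closure ({x, y} : Set G) ⊔ N = ⊤) (h' : closure ({x', y'} : Set G) ⊔ N = ⊤) (H : Subgroup G) :
    (prs N x y H).card = (prs N x' y' H).card := by
  classical
  induction H using WellFoundedLT.induction with
  | ind H ih =>
    have hz : ∀ {a b : G}, closure ({a, b} : Set G) ⊔ N = ⊤ → H ⊔ N ≠ ⊤ → (prs N a b H).card = 0 := by
      intro a b hab hH
      rw [Finset.card_eq_zero, Finset.eq_empty_iff_forall_notMem]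
      intro q hq
      simp only [prs, Finset.mem_filter, Finset.mem_univ, true_and] at hq
      exact hH (hq.2.2 ▸ sup_eq_top_of_pair hab hq.1 hq.2.1)
    by_cases hH : H ⊔ N = ⊤
    · have h1 := (card_ins_eq_sum (N := N) x y H).symm.trans
        ((card_ins hN hH x y).trans ((card_ins hN hH x' y').symm.trans (card_ins_eq_sum (N := N) x' y' H)))
      have h2 : (Finset.univ.filter fun K : Subgroup G => K ≤ H) =
          insert H (Finset.univ.filter fun K : Subgroup G => K < H) := by
        ext K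
        simp only [Finset.mem_filter, Finset.mem_univ, true_and, Finset.mem_insert]
        exact le_iff_eq_or_lt
      rw [h2, Finset.sum_insert (by simp), Finset.sum_insert (by simp),
        Finset.sum_congr rfl (fun K hK => ih K (by simpa using hK))] at h1
      exact add_right_cancel h1
    · rw [hz h hH, hz h' hH]

/-- Gaschütz' lemma for two generators. -/
theorem gaschutz [Finite G] {N : Subgroup G} (hN : N.Normal) (h2 : TwoGen G) {x y : G}
    (h : closure ({x, y} : Set G) ⊔ N = ⊤) : ∃ s ∈ N, ∃ t ∈ N, closure ({x * s, y * t} : Set G) = ⊤ := by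
  classical
  let _ := Fintype.ofFinite G
  obtain ⟨a, b, hab⟩ := h2
  have h1 : (prs N a b ⊤).Nonempty := by
    refine ⟨(a, b), ?_⟩
    simp only [prs, Finset.mem_filter, Finset.mem_univ, true_and]
    exact ⟨by simp, by simp, hab⟩
  have h3 : closure ({a, b} : Set G) ⊔ N = ⊤ := by rw [hab, top_sup_eq]
  have h4 := card_prs_eq hN h3 h ⊤
  have h5 : (prs N x y ⊤).Nonempty := by
    rw [← Finset.card_pos, ← h4]
    exact Finset.card_pos.2 h1
  obtain ⟨q, hq⟩ := h5
  simp only [prs, Finset.mem_filter, Finset.mem_univ, true_and] at hq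
  exact ⟨_, hq.1, _, hq.2.1, by rw [mul_inv_cancel_left, mul_inv_cancel_left]; exact hq.2.2⟩

/-- Gaschütz: if `⟨x, y⟩ N` is 2-generated then the pair lifts. -/
theorem lift_of_twoGen [Finite G] {N : Subgroup G} (hN : N.Normal) {x y : G}
    (h2 : TwoGen ↥(closure ({x, y} : Set G) ⊔ N)) : Lift N x y := by
  set A := closure ({x, y} : Set G) ⊔ N with hA
  have hNA : N ≤ A := le_sup_right
  have hx : x ∈ A := mem_sup_left (subset_closure (by simp))
  have hy : y ∈ A := mem_sup_left (subset_closure (by simp))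
  have h1 : closure ({(⟨x, hx⟩ : ↥A), ⟨y, hy⟩} : Set ↥A) ⊔ N.subgroupOf A = ⊤ := by
    apply Subgroup.map_injective A.subtype_injective
    rw [Subgroup.map_sup, MonoidHom.map_closure, Set.image_pair, Subgroup.subgroupOf_map_subtype,
      inf_eq_left.2 hNA, ← MonoidHom.range_eq_map, Subgroup.range_subtype]
    rfl
  obtain ⟨s, hs, t, ht, h3⟩ := gaschutz (N := N.subgroupOf A) (hN.subgroupOf A) h2 h1
  refine ⟨s, hs, t, ht, ?_⟩
  have h4 := congrArg (Subgroup.map A.subtype) h3
  rw [MonoidHom.map_closure, Set.image_pair, ← MonoidHom.range_eq_map, Subgroup.range_subtype] at h4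
  calc N ≤ A := hNA
    _ = _ := h4.symm

end Gaschutz

section Cos

variable {T : Type u} [Group T] [Finite T]

theorem inn_normal (T : Type u) [Group T] : (MulAut.conj : T →* MulAut T).range.Normal :=
  Cfsg.innNormal T

/-- `Cos2` from the 2-generation of the almost simple groups -/
theorem cos2_of_twoGen
    (h : ∀ A : Subgroup (MulAut T), (MulAut.conj : T →* MulAut T).range ≤ A →
      (∃ x ∈ A, ∃ y ∈ A, A = closure ({x, y} : Set (MulAut T)) ⊔ (MulAut.conj : T →* MulAut T).range) → TwoGen ↥A) :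
    Cos2 T := by
  have : Finite (MulAut T) := Finite.of_injective (fun f : MulAut T => (f : T → T)) DFunLike.coe_injective
  intro x y
  refine lift_of_twoGen (inn_normal T) (h _ le_sup_right ⟨x, mem_sup_left (subset_closure (by simp)), y,
    mem_sup_left (subset_closure (by simp)), rfl⟩)

/-- Euclid -/
theorem cos2_of_ker {C : Type*} [Group C] [Finite C] [IsCyclic C] (φ : MulAut T →* C)
    (h : ∀ x y : MulAut T, φ x = 1 → Lift (MulAut.conj : T →* MulAut T).range x y) : Cos2 T :=
  fun x y => lift_of_ker (inn_normal T) φ h x y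

/-- the trivial pair -/
theorem lift_one (h2 : TwoGen T) : Lift (MulAut.conj : T →* MulAut T).range 1 1 := by
  obtain ⟨a, b, hab⟩ := h2
  refine ⟨MulAut.conj a, ⟨a, rfl⟩, MulAut.conj b, ⟨b, rfl⟩, ?_⟩
  rw [one_mul, one_mul, ← Set.image_pair, ← MonoidHom.map_closure, hab, ← MonoidHom.range_eq_map]

/-- `Out T = 1` -/
theorem cos2_of_out_one (h2 : TwoGen T) (h : Nat.card (Cfsg.Out T) = 1) : Cos2 T := by
  intro x y
  have h1 : (MulAut.conj : T →* MulAut T).range = ⊤ := by
    have h3 : (MulAut.conj : T →* MulAut T).range.index = 1 := h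
    exact Subgroup.index_eq_one.1 h3
  refine Lift.congr (x := 1) (y := 1) ?_ ?_ (lift_one h2)
  · rw [h1]; exact mem_top _
  · rw [h1]; exact mem_top _

/-- `|Out T| ≤ 2`: `T` and `Aut T` are 2-generated. -/
theorem cos2_of_out_two (h2 : TwoGen T) (h : Nat.card (Cfsg.Out T) = 2) (h3 : TwoGen (MulAut T)) : Cos2 T := by
  refine cos2_of_twoGen fun A hA _ => ?_
  have : Finite (MulAut T) := Finite.of_injective (fun f : MulAut T => (f : T → T)) DFunLike.coe_injective
  have h4 : (MulAut.conj : T →* MulAut T).range.index = 2 := h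
  have h5 := Subgroup.relIndex_mul_index hA
  rw [h4] at h5
  have h6 : A.index = 1 ∨ A.index = 2 := (Nat.dvd_prime Nat.prime_two).1 ⟨_, by rw [mul_comm]; exact h5.symm⟩
  rcases h6 with h6 | h6
  · have h7 := Subgroup.index_eq_one.1 h6
    subst h7
    exact TwoGen.of_equiv Subgroup.topEquiv.symm h3
  · have h7 : (MulAut.conj : T →* MulAut T).range.relIndex A = 1 := by
      rw [h6] at h5
      omega
    have h8 : A = (MulAut.conj : T →* MulAut T).range := le_antisymm (Subgroup.relIndex_eq_one.1 h7) hA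
    subst h8
    exact TwoGen.of_surjective (MulAut.conj : T →* MulAut T).rangeRestrict
      (MulAut.conj : T →* MulAut T).rangeRestrict_surjective h2

end Cos

end Cfsg.Agent.H891.DG.Nielsen
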