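import Cfsg.Agent.H891.DG.Defs

/-!
# TEAM GEN, S4180: homomorphisms onto nonabelian simple groups (helper891)

* `crt` : surjective homomorphisms `π i : D →* T` with pairwise distinct kernels are independent;
* `card_surj` : there are at most `κ |Aut T|` surjective homomorphisms `Q →* T`, where `|T| ^ κ ≤ |Q|`.
-/

set_option autoImplicit false

namespace Cfsg.Agent.H891.DG.Crt

open Subgroup

variable {D T ι : Type*} [Group D] [Group T]

theorem ker_eq_of_le [IsSimpleGroup T] {μ ν : D →* T} (hμ : Function.Surjective μ) (hν : Function.Surjective ν)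
    (h : ν.ker ≤ μ.ker) : ν.ker = μ.ker := by
  have h1 : (μ.ker.map ν).Normal := Subgroup.Normal.map inferInstance ν hν
  rcases h1.eq_bot_or_eq_top with h2 | h2
  · refine le_antisymm h ?_
    intro x hx
    have h3 : ν x ∈ μ.ker.map ν := mem_map_of_mem ν hx
    rw [h2, mem_bot] at h3
    exact h3
  · exfalso
    obtain ⟨t, ht⟩ := exists_ne (1 : T)
    obtain ⟨x, rfl⟩ := hμ t
    have h3 : ν x ∈ μ.ker.map ν := h2 ▸ mem_top _
    obtain ⟨y, hy, h4⟩ := h3
    have h5 : x * y⁻¹ ∈ ν.ker := by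
      rw [MonoidHom.mem_ker, map_mul, map_inv, h4, mul_inv_cancel]
    have h6 : x ∈ μ.ker := by
      have := mul_mem (h h5) hy
      rwa [inv_mul_cancel_right] at this
    exact ht h6

theorem exists_aut {μ ν : D →* T} (hμ : Function.Surjective μ) (hν : Function.Surjective ν)
    (h : ν.ker = μ.ker) : ∃ α : MulAut T, ∀ x, μ x = α (ν x) := by
  refine ⟨(QuotientGroup.quotientKerEquivOfSurjective ν hν).symm.trans
    ((QuotientGroup.quotientMulEquivOfEq h).trans (QuotientGroup.quotientKerEquivOfSurjective μ hμ)), fun x => ?_⟩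
  have h1 : (QuotientGroup.quotientKerEquivOfSurjective ν hν).symm (ν x) = QuotientGroup.mk x := by
    rw [MulEquiv.symm_apply_eq]
    rfl
  rw [MulEquiv.trans_apply, h1]
  rfl

variable [IsSimpleGroup T]

theorem map_ker_eq_top {μ ν : D →* T} (hμ : Function.Surjective μ) (hν : Function.Surjective ν)
    (h : ν.ker ≠ μ.ker) : ν.ker.map μ = ⊤ := by
  have h1 : (ν.ker.map μ).Normal := Subgroup.Normal.map inferInstance μ hμ
  rcases h1.eq_bot_or_eq_top with h2 | h2
  · exfalso
    apply h
    refine ker_eq_of_le hμ hν fun x hx => ?_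
    have h3 : μ x ∈ ν.ker.map μ := mem_map_of_mem μ hx
    rw [h2, mem_bot] at h3
    exact h3
  · exact h2

theorem comm_of_inf {L K : Subgroup D} [L.Normal] [K.Normal] {μ : D →* T} (hμ : Function.Surjective μ)
    (hna : ¬ IsMulCommutative T) (hL : L.map μ = ⊤) (hK : K.map μ = ⊤) : (L ⊓ K).map μ = ⊤ := by
  have h1 : ((L ⊓ K).map μ).Normal := Subgroup.Normal.map inferInstance μ hμ
  rcases h1.eq_bot_or_eq_top with h2 | h2
  · exfalso
    apply hna
    refine ⟨⟨fun u v => ?_⟩⟩
    obtain ⟨a, ha, rfl⟩ : u ∈ L.map μ := hL ▸ mem_top u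
    obtain ⟨b, hb, rfl⟩ : v ∈ K.map μ := hK ▸ mem_top v
    have h3 : a * b * a⁻¹ * b⁻¹ ∈ L ⊓ K := by
      refine ⟨?_, ?_⟩
      · have e : a * b * a⁻¹ * b⁻¹ = a * (b * a⁻¹ * b⁻¹) := by group
        rw [e]
        exact L.mul_mem ha (Subgroup.Normal.conj_mem inferInstance _ (L.inv_mem ha) b)
      · exact K.mul_mem (Subgroup.Normal.conj_mem inferInstance _ hb a) (K.inv_mem hb)
    have h4 : μ (a * b * a⁻¹ * b⁻¹) ∈ (L ⊓ K).map μ := mem_map_of_mem μ h3
    rw [h2, mem_bot, map_mul, map_mul, map_mul, map_inv, map_inv, mul_inv_eq_one, mul_inv_eq_iff_eq_mul] at h4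
    exact h4
  · exact h2

theorem crt_aux [DecidableEq ι] (hna : ¬ IsMulCommutative T) (π : ι → D →* T)
    (hs : ∀ i, Function.Surjective (π i)) (hd : ∀ i j, (π i).ker = (π j).ker → i = j) (i : ι) (J : Finset ι)
    (hi : i ∉ J) : (⨅ j ∈ J, (π j).ker).map (π i) = ⊤ := by
  induction J using Finset.induction_on with
  | empty =>
    simp only [Finset.notMem_empty, iInf_false, iInf_top]
    rw [← MonoidHom.range_eq_map, MonoidHom.range_eq_top]
    exact hs i
  | insert j J hj ih =>
    rw [Finset.iInf_insert, inf_comm]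
    have hL : (⨅ k ∈ J, (π k).ker).Normal :=
      Subgroup.normal_iInf_normal fun k => Subgroup.normal_iInf_normal fun _ => inferInstance
    refine comm_of_inf (hs i) hna (ih fun h => hi (Finset.mem_insert_of_mem h)) (map_ker_eq_top (hs i) (hs j) ?_)
    intro h
    exact hi (hd j i h ▸ Finset.mem_insert_self _ _)

theorem crt [Finite ι] (hna : ¬ IsMulCommutative T) (π : ι → D →* T)
    (hs : ∀ i, Function.Surjective (π i)) (hd : ∀ i j, (π i).ker = (π j).ker → i = j) (t : ι → T) :
    ∃ z, ∀ i, π i z = t i := by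
  classical
  let _ := Fintype.ofFinite ι
  have key : ∀ J : Finset ι, ∃ z, (∀ i ∈ J, π i z = t i) ∧ ∀ i, i ∉ J → π i z = 1 := by
    intro J
    induction J using Finset.induction_on with
    | empty => exact ⟨1, fun i hi => absurd hi (Finset.notMem_empty i), fun i _ => map_one _⟩
    | insert i J hi ih =>
      obtain ⟨z, h1, h2⟩ := ih
      obtain ⟨w, hw, h3⟩ : t i ∈ (⨅ j ∈ Finset.univ.erase i, (π j).ker).map (π i) :=
        (crt_aux hna π hs hd i (Finset.univ.erase i) (Finset.notMem_erase i _)) ▸ mem_top _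
      have h4 : ∀ j, j ≠ i → π j w = 1 := by
        intro j hj
        have h5 : w ∈ ⨅ j ∈ Finset.univ.erase i, (π j).ker := hw
        rw [Subgroup.mem_iInf] at h5
        have h6 := h5 j
        rw [Subgroup.mem_iInf] at h6
        exact h6 (Finset.mem_erase.2 ⟨hj, Finset.mem_univ j⟩)
      refine ⟨z * w, fun j hj => ?_, fun j hj => ?_⟩
      · rcases eq_or_ne j i with rfl | hne
        · rw [map_mul, h2 j hi, one_mul, h3]
        · rw [map_mul, h4 j hne, mul_one]
          exact h1 j ((Finset.mem_insert.1 hj).resolve_left hne)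
      · rw [Finset.mem_insert, not_or] at hj
        rw [map_mul, h2 j hj.2, h4 j hj.1, mul_one]
  obtain ⟨z, hz, -⟩ := key Finset.univ
  exact ⟨z, fun i => hz i (Finset.mem_univ i)⟩

theorem card_surj {Q : Type*} [Group Q] [Finite Q] [Finite T] (hna : ¬ IsMulCommutative T) :
    ∃ κ : ℕ, Nat.card T ^ κ ≤ Nat.card Q ∧
      Nat.card {μ : Q →* T // Function.Surjective μ} ≤ κ * Nat.card (MulAut T) := by
  classical
  have : Finite (Q →* T) := Finite.of_injective (fun f : Q →* T => (f : Q → T)) DFunLike.coe_injective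
  have : Finite (MulAut T) := Finite.of_injective (fun f : MulAut T => (f : T → T)) DFunLike.coe_injective
  let S := {μ : Q →* T // Function.Surjective μ}
  let K := Set.range (fun μ : S => μ.1.ker)
  have hch : ∀ k : K, ∃ μ : S, μ.1.ker = k.1 := fun k => k.2
  choose m hm using hch
  have hfin : Finite K := Set.finite_range _
  refine ⟨Nat.card K, ?_, ?_⟩
  · have h1 : Function.Surjective (fun (z : Q) (k : K) => (m k).1 z) := by
      intro t
      obtain ⟨z, hz⟩ := crt hna (fun k => (m k).1) (fun k => (m k).2) (fun i j hij => by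
        rw [hm, hm] at hij
        exact Subtype.ext hij) t
      exact ⟨z, funext hz⟩
    have h2 := Nat.card_le_card_of_surjective _ h1
    rwa [Nat.card_fun] at h2
  · have h3 : ∀ μ : S, ∃ α : MulAut T, ∀ x, μ.1 x = α ((m ⟨μ.1.ker, ⟨μ, rfl⟩⟩).1 x) := fun μ =>
      exists_aut μ.2 (m ⟨μ.1.ker, ⟨μ, rfl⟩⟩).2 (hm _)
    choose α hα using h3
    have h4 : Function.Injective (fun μ : S => ((⟨μ.1.ker, ⟨μ, rfl⟩⟩ : K), α μ)) := by
      intro μ ν h
      simp only [Prod.mk.injEq] at h
      refine Subtype.ext (MonoidHom.ext fun x => ?_)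
      rw [hα μ, hα ν, h.2]
      congr 3
      exact congrArg (fun k => m k) h.1 ▸ rfl
    have h5 := Nat.card_le_card_of_injective _ h4
    rwa [Nat.card_prod] at h5

end Cfsg.Agent.H891.DG.Crt
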