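import Cfsg.Agent.H891.DG.Defs
import Mathlib.GroupTheory.Rank

/-!
# TEAM GEN, S4180: final assembly (helper891)
-/

set_option autoImplicit false

namespace Cfsg.Agent.H891.DG

open Subgroup

universe u

theorem exists_fin_of_card {G : Type u} [Group G] {S : Finset G} (hS : closure (S : Set G) = ⊤) {d : ℕ}
    (hd : S.card ≤ d) : DGen d G := by
  classical
  let e := S.equivFin.symm
  refine ⟨fun i => if h : i.1 < S.card then (e ⟨i.1, h⟩ : G) else 1, ?_⟩
  rw [eq_top_iff, ← hS, closure_le]
  intro g hg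
  refine subset_closure ⟨⟨(e.symm ⟨g, hg⟩).1, lt_of_lt_of_le (e.symm ⟨g, hg⟩).2 hd⟩, ?_⟩
  have h1 : (e.symm ⟨g, hg⟩).1 < S.card := (e.symm ⟨g, hg⟩).2
  simp only [h1, dif_pos]
  exact congrArg Subtype.val (e.apply_symm_apply ⟨g, hg⟩)

theorem dgen_of_rank_le {G : Type u} [Group G] [Group.FG G] {d : ℕ} (h : Group.rank G ≤ d) :
    DGen d G := by
  obtain ⟨S, h1, h2⟩ := Group.rank_spec G
  exact exists_fin_of_card h2 (h1 ▸ h)

theorem rank_le_of_dgen {G : Type u} [Group G] [Group.FG G] {d : ℕ} (h : DGen d G) : Group.rank G ≤ d := by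
  classical
  obtain ⟨f, hf⟩ := h
  have h1 : closure ((Finset.univ.image f : Finset G) : Set G) = ⊤ := by
    rw [Finset.coe_image, Finset.coe_univ, Set.image_univ, hf]
  exact (Group.rank_le h1).trans (Finset.card_image_le.trans (by simp))

theorem final (hA : AbCase.{u}) (hN : NonabCase.{u}) {G : Type u} [Group G] [Finite G] (hnc : ¬ IsCyclic G)
    (M : Subgroup G) [hM : M.Normal] (hM1 : M ≠ ⊥) (huniq : ∀ N : Subgroup G, N.Normal → N ≠ ⊥ → M ≤ N) :
    Group.rank G = max 2 (Group.rank (G ⧸ M)) := by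
  apply le_antisymm
  · apply rank_le_of_dgen
    have h2 : 2 ≤ max 2 (Group.rank (G ⧸ M)) := le_max_left _ _
    have h3 : DGen (max 2 (Group.rank (G ⧸ M))) (G ⧸ M) := dgen_of_rank_le (le_max_right _ _)
    by_cases hc : IsMulCommutative ↥M
    · exact hA G M hnc hM1 huniq hc _ h2 h3
    · exact hN G M hM1 huniq hc _ h2 h3
  · refine max_le ?_ ?_
    · by_contra h
      push Not at h
      apply hnc
      obtain ⟨f, hf⟩ := dgen_of_rank_le (G := G) (d := 1) (by omega)
      refine ⟨f 0, fun g => ?_⟩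
      show g ∈ zpowers (f 0)
      have h1 : Set.range f = {f 0} := by
        ext z
        constructor
        · rintro ⟨i, rfl⟩
          rw [Subsingleton.elim i 0]
          rfl
        · rintro rfl
          exact ⟨0, rfl⟩
      rw [h1, ← zpowers_eq_closure] at hf
      rw [hf]
      exact mem_top g
    · exact Group.rank_le_of_surjective (QuotientGroup.mk' M) (QuotientGroup.mk'_surjective M)

end Cfsg.Agent.H891.DG
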